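import Cfsg.Agent.Screen.CosetEnum.Orbit

/-!
# A certificate that a point stabiliser is maximal

From a pair `(c, d)` in one block the pairs obtained by the generators lie in one block each; a spanning tree of such
pairs shows that the block of `c` is the whole orbit.
-/

set_option autoImplicit false

namespace Cfsg.Agent.G24Iso

open Cfsg.Agent.Screen.CosetEnum

/-- Pack a pair. -/
def pk (p q : ℕ) : ℕ := p + 1024 * q

/-- Apply a letter to both entries of a pair. -/
def pimg (T : Tab) (g x : ℕ) : ℕ :=
  force (T.img (x % 1024) g) fun a => force (T.img (x / 1024) g) fun b => pk a b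

/-- Slot `i` of a packed list. -/
def slot (s i : ℕ) : ℕ := Nat.land (Nat.shiftRight s (20 * i)) 1048575

/-- Build the pairs: each one is the image of an earlier one. -/
def pairsGo (T : Tab) (k : ℕ) : List (ℕ × ℕ) → ℕ → ℕ → Option (ℕ × ℕ)
  | [], s, len => some (s, len)
  | (j, g) :: l, s, len =>
    bif Nat.blt j len && Nat.blt g k && Nat.blt (slot s j % 1024) T.n && Nat.blt (slot s j / 1024) T.n then
      force (Nat.lor s (Nat.shiftLeft (pimg T g (slot s j)) (20 * len))) fun s' =>
        bif Nat.beq (slot s' len) (pimg T g (slot s j)) then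
          force (len + 1) fun len' => bif checkPrefix s s' len then pairsGo T k l s' len' else none
        else none
    else none
where
  /-- The slots below `len` are unchanged. -/
  checkPrefix (s s' len : ℕ) : Bool :=
    Nat.beq (Nat.land s' (Nat.shiftLeft 1 (20 * len) - 1)) s && Nat.blt s (Nat.shiftLeft 1 (20 * len))

/-- Grow the block along a tree of pairs. -/
def treeGo (s len : ℕ) : List (ℕ × Bool) → ℕ → Option ℕ
  | [], S => some S
  | (j, rev) :: l, S =>
    bif Nat.blt j len then
      bif rev then
        bif bit S (slot s j / 1024) then force (addBit S (slot s j % 1024)) fun S' => treeGo s len l S' else none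
      else
        bif bit S (slot s j % 1024) then force (addBit S (slot s j / 1024)) fun S' => treeGo s len l S' else none
    else none

/-- One certificate. -/
def blockOK (T : Tab) (k c d S : ℕ) (how : List (ℕ × ℕ)) (tree : List (ℕ × Bool)) : Bool :=
  Nat.blt c T.n && Nat.blt d T.n && Nat.beq (slot (pk c d) 0) (pk c d) && Nat.blt (pk c d) 1048576 && Nat.blt c 1024 &&
    Nat.blt T.n 1025 &&
    match pairsGo T k how (pk c d) 1 with
    | none => false
    | some (s, len) =>
      match treeGo s len tree (addBit 0 c) with
      | none => false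
      | some U => Nat.beq (Nat.land U S) S

/-- Cover the orbit from representatives by words fixing the point. -/
def coverGo (T : Tab) (ws : List (List ℕ)) : List (ℕ × ℕ) → ℕ → Option ℕ
  | [], C => some C
  | (j, p) :: l, C =>
    bif bit C p && Nat.blt p T.n && Nat.blt j ws.length then
      force (addBit C (T.app (ws.getD j []) p)) fun C' => coverGo T ws l C'
    else none

/-- The check on the covering. -/
def coverOK (T : Tab) (k c S : ℕ) (ws : List (List ℕ)) (reps : List ℕ) (steps : List (ℕ × ℕ)) : Bool :=
  (ws.all fun w => (w.all fun x => Nat.blt x k) && Nat.beq (T.app w c) c) &&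
    match coverGo T ws steps (reps.foldl addBit 0) with
    | none => false
    | some C => Nat.beq (Nat.land (addBit C c) S) S

variable {G : Type*} [Group G] {T : Tab}

theorem slot_of_prefix {s s' len j : ℕ} (hj : j < len) (h : pairsGo.checkPrefix s s' len = true) :
    slot s' j = slot s j := by
  simp only [pairsGo.checkPrefix, Bool.and_eq_true, Nat.blt_eq] at h
  have h1 : s' &&& (1 <<< (20 * len) - 1) = s := Nat.eq_of_beq_eq_true h.1
  rw [Nat.one_shiftLeft] at h1
  show (s' >>> (20 * j)) &&& 1048575 = (s >>> (20 * j)) &&& 1048575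
  refine Nat.eq_of_testBit_eq fun i => ?_
  rw [← h1, show (1048575 : ℕ) = 2 ^ 20 - 1 from rfl]
  simp only [Nat.testBit_and, Nat.testBit_shiftRight, Nat.testBit_two_pow_sub_one]
  by_cases hi : i < 20
  · rw [decide_eq_true (show 20 * j + i < 20 * len by omega)]; simp
  · simp [hi]

/-- The setting: a subgroup `K` between the stabiliser of `c` in `J` and `J`. -/
structure Setting (hT : T.Checked) (gen : ℕ → G) (f : G →* Equiv.Perm (Fin T.n)) (k : ℕ) (J K : Subgroup G)
    (c : Fin T.n) : Prop where
  hf : ∀ x < T.ng, f (gen x) = hT.perm x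
  hk : k ≤ T.ng
  gen_mem : ∀ x < k, gen x ∈ J
  le : K ≤ J
  stab : ∀ g ∈ J, f g c = c → g ∈ K

/-- The block of the point. -/
def InBlock (f : G →* Equiv.Perm (Fin T.n)) (K : Subgroup G) (c : Fin T.n) (p : ℕ) : Prop :=
  ∃ u ∈ K, ((f u c : Fin T.n) : ℕ) = p

theorem eval_mem {gen : ℕ → G} {k : ℕ} {J : Subgroup G} (h : ∀ x < k, gen x ∈ J) :
    ∀ w : List ℕ, (∀ x ∈ w, x < k) → evalW gen w ∈ J
  | [], _ => one_mem _
  | a :: w, hw => mul_mem (eval_mem h w fun x hx => hw x (List.mem_cons_of_mem _ hx)) (h a (hw a List.mem_cons_self))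

theorem map_eval {hT : T.Checked} {gen : ℕ → G} {f : G →* Equiv.Perm (Fin T.n)}
    (hf : ∀ x < T.ng, f (gen x) = hT.perm x) : ∀ w : List ℕ, (∀ x ∈ w, x < T.ng) →
    f (evalW gen w) = evalW hT.perm w
  | [], _ => map_one f
  | a :: w, hw => by
    rw [evalW, evalW, map_mul, map_eval hf w (fun x hx => hw x (List.mem_cons_of_mem _ hx)),
      hf a (hw a List.mem_cons_self)]

variable {hT : T.Checked} {gen : ℕ → G} {f : G →* Equiv.Perm (Fin T.n)} {k : ℕ} {J K : Subgroup G} {c : Fin T.n}

/-- A packed pair lies in one block. -/
def GoodPair (f : G →* Equiv.Perm (Fin T.n)) (J : Subgroup G) (c d : Fin T.n) (x : ℕ) : Prop :=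
  ∃ u ∈ J, x = pk (f u c : Fin T.n) (f u d : Fin T.n)

theorem pairsGo_spec (H : Setting hT gen f k J K c) (hn : T.n ≤ 1024) {d : Fin T.n} :
    ∀ (l : List (ℕ × ℕ)) (s len : ℕ) {s' len' : ℕ}, pairsGo T k l s len = some (s', len') →
      (∀ i < len, GoodPair f J c d (slot s i)) → ∀ i < len', GoodPair f J c d (slot s' i) := by
  intro l
  induction l with
  | nil =>
    intro s len s' len' h hg
    simp only [pairsGo, Option.some.injEq, Prod.mk.injEq] at h
    obtain ⟨rfl, rfl⟩ := h
    exact hg
  | cons a l ih =>
    obtain ⟨j, g⟩ := a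
    intro s len s' len' h hg
    rw [pairsGo] at h
    simp only [force_eq] at h
    cases hc : (Nat.blt j len && Nat.blt g k && Nat.blt (slot s j % 1024) T.n && Nat.blt (slot s j / 1024) T.n) with
    | false => rw [hc] at h; simp at h
    | true =>
      rw [hc, cond_true] at h
      cases hb : Nat.beq (slot (Nat.lor s (Nat.shiftLeft (pimg T g (slot s j)) (20 * len))) len)
          (pimg T g (slot s j)) with
      | false => rw [hb] at h; simp at h
      | true =>
        rw [hb, cond_true] at h
        cases hp : pairsGo.checkPrefix s (Nat.lor s (Nat.shiftLeft (pimg T g (slot s j)) (20 * len))) len with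
        | false => rw [hp] at h; simp at h
        | true =>
          rw [hp, cond_true] at h
          simp only [Bool.and_eq_true, Nat.blt_eq] at hc
          refine ih _ _ h fun i hi => ?_
          rcases Nat.lt_or_ge i len with hi' | hi'
          · rw [slot_of_prefix hi' hp]; exact hg i hi'
          · obtain rfl : i = len := by omega
            rw [Nat.eq_of_beq_eq_true hb]
            obtain ⟨u, hu, he⟩ := hg j hc.1.1.1
            have hgk : g < k := hc.1.1.2
            have hgn : g < T.ng := lt_of_lt_of_le hgk H.hk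
            refine ⟨gen g * u, mul_mem (H.gen_mem g hgk) hu, ?_⟩
            rw [map_mul, Equiv.Perm.mul_apply, Equiv.Perm.mul_apply, H.hf g hgn, Tab.Checked.perm_apply hT hgn,
              Tab.Checked.perm_apply hT hgn, he, pimg, force_eq, force_eq]
            have h1 := (f u c).isLt
            have h2 : pk (f u c : Fin T.n) (f u d : Fin T.n) % 1024 = (f u c : Fin T.n) := by
              simp only [pk]; omega
            have h3 : pk (f u c : Fin T.n) (f u d : Fin T.n) / 1024 = (f u d : Fin T.n) := by
              simp only [pk]; omega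
            rw [h2, h3]

theorem treeGo_spec (H : Setting hT gen f k J K c) (hn : T.n ≤ 1024) {d : Fin T.n} {k0 : G} (hk0 : k0 ∈ K)
    (hd : f k0 c = d) {s len : ℕ} (hg : ∀ i < len, GoodPair f J c d (slot s i)) :
    ∀ (l : List (ℕ × Bool)) (S : ℕ) {U : ℕ}, treeGo s len l S = some U →
      (∀ p, bit S p = true → InBlock f K c p) → ∀ p, bit U p = true → InBlock f K c p := by
  intro l
  induction l with
  | nil =>
    intro S U h hS
    simp only [treeGo, Option.some.injEq] at h
    subst h; exact hS
  | cons a l ih =>
    obtain ⟨j, rev⟩ := a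
    intro S U h hS
    rw [treeGo] at h
    simp only [force_eq] at h
    cases hj : Nat.blt j len with
    | false => rw [hj] at h; simp at h
    | true =>
      rw [hj, cond_true] at h
      obtain ⟨u, hu, he⟩ := hg j (by simpa using hj)
      have h1 := (f u c).isLt
      have hp : slot s j % 1024 = (f u c : Fin T.n) := by rw [he]; simp only [pk]; omega
      have hq : slot s j / 1024 = (f u d : Fin T.n) := by rw [he]; simp only [pk]; omega
      have key : ∀ v ∈ K, f v c = f u c ∨ f v c = f u d → u ∈ K := fun v hv hvv => by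
        rcases hvv with e | e
        · have := H.stab (v⁻¹ * u) (mul_mem (inv_mem (H.le hv)) hu) (by
            rw [map_mul, Equiv.Perm.mul_apply, ← e, map_inv]; simp)
          simpa using mul_mem hv this
        · have := H.stab (v⁻¹ * (u * k0)) (mul_mem (inv_mem (H.le hv)) (mul_mem hu (H.le hk0))) (by
            rw [map_mul, Equiv.Perm.mul_apply, map_mul, Equiv.Perm.mul_apply, hd, ← e, map_inv]; simp)
          simpa using mul_mem (mul_mem hv this) (inv_mem hk0)
      cases rev with
      | true =>
        cases hb : bit S (slot s j / 1024) with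
        | false => rw [hb] at h; simp at h
        | true =>
          rw [hb] at h
          simp only [cond_true] at h
          refine ih _ h fun p hp' => ?_
          rw [bit_addBit, Bool.or_eq_true] at hp'
          rcases hp' with hp' | hp'
          · exact hS p hp'
          · obtain rfl := of_decide_eq_true hp'
            obtain ⟨v, hv, hve⟩ := hS _ hb
            exact ⟨u, key v hv (Or.inr (Fin.ext (hve.trans hq))), hp.symm⟩
      | false =>
        cases hb : bit S (slot s j % 1024) with
        | false => rw [hb] at h; simp at h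
        | true =>
          rw [hb] at h
          simp only [cond_false, cond_true] at h
          refine ih _ h fun p hp' => ?_
          rw [bit_addBit, Bool.or_eq_true] at hp'
          rcases hp' with hp' | hp'
          · exact hS p hp'
          · obtain rfl := of_decide_eq_true hp'
            obtain ⟨v, hv, hve⟩ := hS _ hb
            refine ⟨u * k0, mul_mem (key v hv (Or.inl (Fin.ext (hve.trans hp)))) hk0, ?_⟩
            rw [map_mul, Equiv.Perm.mul_apply, hd, hq]

theorem coverGo_spec (H : Setting hT gen f k J K c) {ws : List (List ℕ)}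
    (hws : ∀ w ∈ ws, (∀ x ∈ w, x < k) ∧ T.app w c = c) (R : Prop) :
    ∀ (l : List (ℕ × ℕ)) (C : ℕ) {C' : ℕ}, coverGo T ws l C = some C' →
      (∀ p, bit C p = true → InBlock f K c p → R) → ∀ p, bit C' p = true → InBlock f K c p → R := by
  intro l
  induction l with
  | nil =>
    intro C C' h hC
    simp only [coverGo, Option.some.injEq] at h
    subst h; exact hC
  | cons a l ih =>
    obtain ⟨j, q⟩ := a
    intro C C' h hC
    rw [coverGo] at h
    simp only [force_eq] at h
    cases hc : (bit C q && Nat.blt q T.n && Nat.blt j ws.length) with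
    | false => rw [hc] at h; simp at h
    | true =>
      rw [hc, cond_true] at h
      simp only [Bool.and_eq_true, Nat.blt_eq] at hc
      refine ih _ h fun p hp hpB => ?_
      rw [bit_addBit, Bool.or_eq_true] at hp
      rcases hp with hp | hp
      · exact hC p hp hpB
      · obtain rfl := of_decide_eq_true hp
        have hw : ws.getD j [] ∈ ws := by
          rw [List.getD_eq_getElem _ _ hc.2]; exact List.getElem_mem hc.2
        obtain ⟨hl, hfix⟩ := hws _ hw
        have hl' : ∀ x ∈ ws.getD j [], x < T.ng := fun x hx => lt_of_lt_of_le (hl x hx) H.hk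
        have hu : evalW gen (ws.getD j []) ∈ K := H.stab _ (eval_mem H.gen_mem _ hl) (Fin.ext (by
          rw [map_eval H.hf _ hl', Tab.Checked.app_eq hT _ hl', hfix]))
        obtain ⟨v, hv, hve⟩ := hpB
        have e : f v c = f (evalW gen (ws.getD j [])) ⟨q, hc.1.2⟩ :=
          Fin.ext (by rw [hve, map_eval H.hf _ hl', Tab.Checked.app_eq hT _ hl'])
        refine hC q hc.1.1 ⟨(evalW gen (ws.getD j []))⁻¹ * v, mul_mem (inv_mem hu) hv, ?_⟩
        rw [map_mul, Equiv.Perm.mul_apply, e, map_inv]
        simp

theorem bit_foldl_addBit : ∀ (l : List ℕ) (S p : ℕ), bit (l.foldl addBit S) p = true → bit S p = true ∨ p ∈ l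
  | [], S, p, h => Or.inl h
  | a :: l, S, p, h => by
    rcases bit_foldl_addBit l _ p h with h | h
    · rw [bit_addBit, Bool.or_eq_true, decide_eq_true_eq] at h
      rcases h with h | h
      · exact Or.inl h
      · exact Or.inr (h ▸ List.mem_cons_self)
    · exact Or.inr (List.mem_cons_of_mem _ h)

theorem land_mask {U S p : ℕ} (h : Nat.beq (Nat.land U S) S = true) (hp : bit S p = true) : bit U p = true := by
  have h' : U &&& S = S := Nat.eq_of_beq_eq_true h
  rw [bit_eq] at hp ⊢
  rw [← h', Nat.testBit_and, Bool.and_eq_true] at hp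
  exact hp.1

/-- The conclusion: the stabiliser is maximal. -/
theorem stab_maximal (H : Setting hT gen f k J K c) (S : ℕ) (hn : T.n ≤ 1024)
    (horb : ∀ g ∈ J, bit S (f g c : Fin T.n) = true)
    {ws : List (List ℕ)} {reps : List ℕ} {steps : List (ℕ × ℕ)} (hcov : coverOK T k c S ws reps steps = true)
    (hblock : ∀ d ∈ reps, ∃ how tree, blockOK T k c d S how tree = true)
    (hne : ∃ g ∈ K, f g c ≠ c) : K = J := by
  refine le_antisymm H.le fun g hg => ?_
  suffices hB : InBlock f K c (f g c : Fin T.n) by
    obtain ⟨v, hv, hve⟩ := hB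
    have hve' : f v c = f g c := Fin.ext hve
    have := H.stab (v⁻¹ * g) (mul_mem (inv_mem (H.le hv)) hg) (by
      rw [map_mul, Equiv.Perm.mul_apply, ← hve', map_inv]; simp)
    simpa using mul_mem hv this
  simp only [coverOK, Bool.and_eq_true, List.all_eq_true, Nat.blt_eq] at hcov
  obtain ⟨hws, hcov⟩ := hcov
  cases hC : coverGo T ws steps (reps.foldl addBit 0) with
  | none => rw [hC] at hcov; simp at hcov
  | some C =>
    rw [hC] at hcov
    obtain ⟨g1, hg1, hg1c⟩ := hne
    have hb : bit (addBit C c) (f g1 c : Fin T.n) = true := land_mask hcov (horb g1 (H.le hg1))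
    rw [bit_addBit, Bool.or_eq_true, decide_eq_true_eq] at hb
    rcases hb with hb | hb
    swap
    · exact absurd (Fin.ext hb.symm) hg1c
    obtain ⟨d, hd, v, hv, hvd⟩ : ∃ d ∈ reps, InBlock f K c d :=
      coverGo_spec H (fun w hw => ⟨(hws w hw).1, Nat.eq_of_beq_eq_true (hws w hw).2⟩) _ steps _ hC
        (fun p hp hpB => by
          rcases bit_foldl_addBit reps 0 p hp with h | h
          · rw [bit_eq, Nat.zero_testBit] at h; exact absurd h Bool.false_ne_true
          · exact ⟨p, h, hpB⟩) _ hb ⟨g1, hg1, rfl⟩
    obtain ⟨how, tree, hok⟩ := hblock d hd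
    simp only [blockOK, Bool.and_eq_true, Nat.blt_eq] at hok
    obtain ⟨⟨⟨⟨⟨⟨-, hdn⟩, hsl⟩, -⟩, -⟩, -⟩, hok⟩ := hok
    cases hP : pairsGo T k how (pk c d) 1 with
    | none => rw [hP] at hok; simp at hok
    | some sl =>
      obtain ⟨s, len⟩ := sl
      rw [hP] at hok
      simp only at hok
      have hgood := pairsGo_spec H hn how (pk c d) 1 hP (d := ⟨d, hdn⟩) (fun i hi => by
        obtain rfl : i = 0 := by omega
        refine ⟨1, one_mem _, ?_⟩
        rw [Nat.eq_of_beq_eq_true hsl, map_one]; rfl)
      cases hU : treeGo s len tree (addBit 0 c) with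
      | none => rw [hU] at hok; simp at hok
      | some U =>
        rw [hU] at hok
        exact treeGo_spec H hn hv (d := ⟨d, hdn⟩) (Fin.ext hvd) hgood tree _ hU (fun p hp => by
          rw [bit_addBit, Bool.or_eq_true, decide_eq_true_eq] at hp
          rcases hp with hp | hp
          · rw [bit_eq, Nat.zero_testBit] at hp; exact absurd hp Bool.false_ne_true
          · exact ⟨1, one_mem _, by rw [map_one]; exact hp⟩) _ (land_mask hok (horb g hg))

end Cfsg.Agent.G24Iso
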