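import Cfsg.Agent.G24Iso.Words

/-!
# The finite checks
-/

set_option autoImplicit false
set_option maxRecDepth 20000

namespace Cfsg.Agent.G24Iso

open Cfsg.Lie

/-- Evaluate the rows before going on. -/
def forceRows {α : Type} : M14 → (M14 → α) → α
  | [], k => k []
  | (a, b) :: l, k => (match a with | 0 => (match b with | 0 => forceRows l fun l' => k ((0, 0) :: l')
                                                         | n + 1 => forceRows l fun l' => k ((0, n + 1) :: l'))
                                    | m + 1 => (match b with | 0 => forceRows l fun l' => k ((m + 1, 0) :: l')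
                                                             | n + 1 => forceRows l fun l' => k ((m + 1, n + 1) :: l')))

theorem forceRows_eq {α : Type} : ∀ (l : M14) (k : M14 → α), forceRows l k = k l
  | [], k => rfl
  | (a, b) :: l, k => by cases a <;> cases b <;> simp [forceRows, forceRows_eq l]

/-- A product of generators. -/
def prodRows : List ℕ → M14
  | [] => one14
  | a :: l => forceRows (prodRows l) fun B => mm (genRows a) B

/-- The relations between the six generators. -/
def rels24 : List (List ℕ) :=
  [[2, 0, 2, 0], [3, 0, 3, 0], [4, 0, 4, 0], [5, 0, 5, 0], [3, 1, 3, 1], [4, 1, 4, 1], [4, 2, 4, 2],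
    [5, 2, 5, 2], [5, 3, 5, 3], [5, 4, 5, 4], [2, 1, 2, 1, 2, 1], [5, 1, 5, 1, 5, 1], [4, 3, 4, 3, 4, 3],
    [2, 3, 2, 3, 2, 3, 2, 3, 0], [1, 0, 1, 0, 1, 0, 1, 0, 1, 0],
    [3, 2, 3, 2, 3, 2, 3, 2, 3, 2, 3, 2, 3, 2, 3, 2],
    [5, 2, 1, 0, 5, 2, 1, 0, 5, 2, 1, 0, 5, 2, 1, 0, 5, 2, 1, 0],
    [4, 3, 2, 3, 2, 1, 3, 2, 3, 2, 1, 3, 2, 3, 2, 1, 3, 2, 3, 2, 1, 3, 2, 3, 2, 1, 4, 3, 2, 3, 2, 1, 3, 2, 3,
      2, 1, 3, 2, 3, 2, 1, 3, 2, 3, 2, 1, 3, 2, 3, 2, 1, 4, 3, 2, 3, 2, 1, 3, 2, 3, 2, 1, 3, 2, 3, 2, 1, 3, 2, 3,
      2, 1, 3, 2, 3, 2, 1],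
    [0, 0], [1, 1], [2, 2], [3, 3], [4, 4], [5, 5], []]

theorem genRows_eq : ∀ i < 6, genRows i = wordList (genWord i) := by decide +kernel

theorem length_genRows : ∀ i < 6, (genRows i).length = 14 := by decide +kernel

theorem rels_check : rels24.all (fun v => prodRows v.reverse == one14) = true := by decide +kernel

theorem root_check : (List.finRange chevG2.nroots).all (fun r =>
    prodRows (rootWords.getD (2 * r.val) []) == xList r (true, false) &&
      prodRows (rootWords.getD (2 * r.val + 1) []) == xList r (false, true) &&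
        mm (xList r (true, false)) (xList r (false, true)) == xList r (true, true) &&
          xList r (false, false) == one14) = true := by
  decide +kernel

theorem inv_check : (List.finRange chevG2.nroots).all (fun r =>
    mm (xList r (true, false)) (xList r (true, false)) == one14 &&
      mm (xList r (false, true)) (xList r (false, true)) == one14 &&
        mm (xList r (true, true)) (xList r (true, true)) == one14) = true := by
  decide +kernel

end Cfsg.Agent.G24Iso
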