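import Cfsg.Agent.G24Iso.J2Data
import Cfsg.Agent.Screen.CosetEnum.OrderGlue
import Cfsg.Agent.Screen.CosetEnum.Orbit

/-!
# The five elements generate the Hall–Janko group and satisfy the relations
-/

set_option autoImplicit false
set_option maxHeartbeats 1000000
set_option maxRecDepth 100000

namespace Cfsg.Agent.G24Iso

open Cfsg.Agent.FGS2.J2 Cfsg.Agent.Screen.CosetEnum

/-- The relations of the first five generators. -/
def rels5 : List (List ℕ) :=
  [[2, 0, 2, 0], [3, 0, 3, 0], [4, 0, 4, 0], [3, 1, 3, 1], [4, 1, 4, 1], [4, 2, 4, 2],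
    [2, 1, 2, 1, 2, 1], [4, 3, 4, 3, 4, 3],
    [2, 3, 2, 3, 2, 3, 2, 3, 0], [1, 0, 1, 0, 1, 0, 1, 0, 1, 0],
    [3, 2, 3, 2, 3, 2, 3, 2, 3, 2, 3, 2, 3, 2, 3, 2],
    [4, 3, 2, 3, 2, 1, 3, 2, 3, 2, 1, 3, 2, 3, 2, 1, 3, 2, 3, 2, 1, 3, 2, 3, 2, 1, 4, 3, 2, 3, 2, 1, 3, 2, 3,
      2, 1, 3, 2, 3, 2, 1, 3, 2, 3, 2, 1, 3, 2, 3, 2, 1, 4, 3, 2, 3, 2, 1, 3, 2, 3, 2, 1, 3, 2, 3, 2, 1, 3, 2, 3,
      2, 1, 3, 2, 3, 2, 1],
    [0, 0], [1, 1], [2, 2], [3, 3], [4, 4], []]

/-- A product of codes. -/
def codeProd : List ℕ → ℕ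
  | [] => idCode
  | a :: l => force (codeProd l) fun x => mmul a x

/-- The elements. -/
noncomputable def jEl (i : ℕ) : Spor.J2 := ((jWord i).map tRef).prod

theorem jWord_lt : ∀ i < 5, ∀ a ∈ jWord i, a < 315 := by decide +kernel

theorem jCode_eq : ∀ i < 5, codeProd ((jWord i).map tc) = jCode i := by decide +kernel

theorem M_prod_tRef : ∀ l : List ℕ, (∀ a ∈ l, a < 315) → M ((l.map tRef).prod) = codeProd (l.map tc)
  | [], _ => M_one
  | a :: l, h => by
    rw [List.map_cons, List.prod_cons, M_mul, M_tRef (h a List.mem_cons_self),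
      M_prod_tRef l fun x hx => h x (List.mem_cons_of_mem _ hx), List.map_cons, codeProd, force_eq]

theorem M_jEl {i : ℕ} (hi : i < 5) : M (jEl i) = jCode i := by
  rw [jEl, M_prod_tRef _ (jWord_lt i hi), jCode_eq i hi]

theorem jEl_out {i : ℕ} (hi : 5 ≤ i) : jEl i = 1 := by
  obtain ⟨k, rfl⟩ : ∃ k, i = k + 5 := ⟨i - 5, by omega⟩
  rfl

theorem M_evalW : ∀ v : List ℕ, (∀ a ∈ v, a < 5) → M (evalW jEl v.reverse) = codeProd (v.map jCode)
  | [], _ => M_one
  | a :: v, h => by
    rw [List.reverse_cons, evalW_append, evalW, evalW, one_mul, M_mul, M_jEl (h a List.mem_cons_self),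
      M_evalW v fun x hx => h x (List.mem_cons_of_mem _ hx), List.map_cons, codeProd, force_eq]

theorem j_rels_check : rels5.all (fun v => (v.all fun a => decide (a < 5)) &&
    codeProd (v.reverse.map jCode) == idCode) = true := by decide +kernel

theorem rels_jEl : ∀ v ∈ rels5, evalW jEl v = 1 := by
  intro v hv
  have h := List.all_eq_true.1 j_rels_check v hv
  rw [Bool.and_eq_true, List.all_eq_true] at h
  refine M_inj ?_
  have e := M_evalW v.reverse fun a ha => of_decide_eq_true (h.1 a (List.mem_reverse.1 ha))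
  rw [List.reverse_reverse] at e
  rw [e, eq_of_beq h.2, M_one]

theorem jEl_sq (i : ℕ) : jEl i * jEl i = 1 := by
  rcases Nat.lt_or_ge i 5 with hi | hi
  · have h := rels_jEl [i, i] (by
      have : ∀ j < 5, [j, j] ∈ rels5 := by decide +kernel
      exact this i hi)
    simpa [evalW] using h
  · rw [jEl_out hi, one_mul]

/-- One step of the chain. -/
def jStepOK (S : ℕ) : List (ℕ × ℕ × ℕ) → Option ℕ
  | [] => some S
  | (n, g, p) :: l =>
    bif Nat.blt n 315 && Nat.blt g 5 && bit S p && Nat.blt p 315 &&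
        (mmul (mmul (jCode g) (tc p)) (jCode g) == tc n) then
      force (addBit S n) fun S' => jStepOK S' l
    else none

theorem j_chain_check : jCode 0 = tc 0 ∧
    (jStepOK (addBit 0 0) jChain).any (fun S => (List.range 315).all fun n => bit S n) = true := by
  decide +kernel

theorem closure_jEl : Subgroup.closure {g : Spor.J2 | ∃ i < 5, g = jEl i} = ⊤ := by
  set C := Subgroup.closure {g : Spor.J2 | ∃ i < 5, g = jEl i}
  have hg : ∀ i < 5, jEl i ∈ C := fun i hi => Subgroup.subset_closure ⟨i, hi, rfl⟩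
  have key : ∀ (l : List (ℕ × ℕ × ℕ)) (S : ℕ) {U : ℕ}, jStepOK S l = some U →
      (∀ n, bit S n = true → tRef n ∈ C) → ∀ n, bit U n = true → tRef n ∈ C := by
    intro l
    induction l with
    | nil =>
      intro S U h hS
      simp only [jStepOK, Option.some.injEq] at h
      subst h; exact hS
    | cons a l ih =>
      obtain ⟨n, g, p⟩ := a
      intro S U h hS
      rw [jStepOK] at h
      simp only [force_eq] at h
      cases hc : (Nat.blt n 315 && Nat.blt g 5 && bit S p && Nat.blt p 315 &&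
          (mmul (mmul (jCode g) (tc p)) (jCode g) == tc n)) with
      | false => rw [hc] at h; simp at h
      | true =>
        rw [hc, cond_true] at h
        simp only [Bool.and_eq_true, Nat.blt_eq] at hc
        obtain ⟨⟨⟨⟨hn, hg5⟩, hp⟩, hpn⟩, he⟩ := hc
        refine ih _ h fun m hm => ?_
        rw [bit_addBit, Bool.or_eq_true, decide_eq_true_eq] at hm
        rcases hm with hm | rfl
        · exact hS m hm
        · have : tRef n = jEl g * tRef p * jEl g := M_inj (by
            rw [M_mul, M_mul, M_tRef hn, M_tRef hpn, M_jEl hg5, eq_of_beq he])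
          rw [this]
          exact mul_mem (mul_mem (hg g hg5) (hS p hp)) (hg g hg5)
  obtain ⟨h0, hch⟩ := j_chain_check
  cases hU : jStepOK (addBit 0 0) jChain with
  | none => rw [hU] at hch; simp at hch
  | some U =>
    rw [hU] at hch
    simp only [Option.any_some, List.all_eq_true, List.mem_range] at hch
    refine eq_top_iff.2 (closure_tRef ▸ (Subgroup.closure_le _).2 ?_)
    rintro _ ⟨n, hn, rfl⟩
    refine key _ _ hU (fun m hm => ?_) n (hch n hn)
    rw [bit_addBit, Bool.or_eq_true, decide_eq_true_eq] at hm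
    rcases hm with hm | rfl
    · rw [bit_eq, Nat.zero_testBit] at hm; exact absurd hm Bool.false_ne_true
    · have : tRef 0 = jEl 0 := M_inj (by rw [M_tRef (by norm_num), M_jEl (by norm_num), h0])
      rw [this]
      exact hg 0 (by norm_num)

end Cfsg.Agent.G24Iso
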