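import Cfsg.Agent.G24Iso.Checks
import Cfsg.Agent.Chev.OrdersByType
import Cfsg.Agent.Screen.CosetEnum.SuzOrd.Main
import Cfsg.Agent.S1680

/-!
# The subgroup of the presented Suzuki group is G2(4)

Six elements of G2(4) satisfy the relations of the first six generators, so the diagonal subgroup they generate in the
product has order at most 251596800, which is the order of each of its two projections.
-/

set_option autoImplicit false
set_option maxHeartbeats 1000000
set_option maxRecDepth 20000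
set_option linter.unusedSectionVars false

namespace Cfsg.Agent.G24Iso

open Cfsg.Lie Cfsg.Agent.Screen.CosetEnum
open scoped Matrix MatrixGroups

universe u

variable {K : Type u} [Field K] [CharP K 2] (w : K) (hw : w * w = w + 1)
include hw

theorem xMat_sq (r : Fin chevG2.nroots) (c : C4) :
    chevG2.xMat K r (cv w c) * chevG2.xMat K r (cv w c) = 1 := by
  have h1 := List.all_eq_true.1 inv_check r (List.mem_finRange r)
  have h0 := List.all_eq_true.1 root_check r (List.mem_finRange r)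
  simp only [Bool.and_eq_true] at h1 h0
  rw [← toMat_xList w hw (xListOK_all r c.1 c.2), ← toMat_mm w hw _ _ (length_xList r c), ← toMat_one w]
  congr 1
  obtain ⟨a, b⟩ := c
  cases a <;> cases b
  · rw [eq_of_beq h0.2]; decide +kernel
  · exact eq_of_beq h1.1.2
  · exact eq_of_beq h1.1.1
  · exact eq_of_beq h1.2

/-- A root element in the group. -/
def xS (r : Fin chevG2.nroots) (c : C4) : ↥(chevG2.group K) :=
  ⟨⟨chevG2.xMat K r (cv w c), chevG2.xMat K r (cv w c), xMat_sq w hw r c, xMat_sq w hw r c⟩,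
    Subgroup.subset_closure ⟨r, cv w c, rfl⟩⟩

/-- The six generators; other numbers give `1`. -/
def yG (i : ℕ) : ↥(chevG2.group K) := ((genWord i).map fun p => xS w hw p.1 p.2).prod

/-- The underlying matrix. -/
def matHom : ↥(chevG2.group K) →* Matrix chevG2.Idx chevG2.Idx K :=
  (Units.coeHom _).comp (chevG2.group K).subtype

theorem matHom_inj : Function.Injective (matHom (K := K)) :=
  fun a b h => Subtype.ext (Units.ext h)

theorem mat_yG {i : ℕ} (hi : i < 6) : matHom (yG w hw i) = toMat w (genRows i) := by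
  rw [genRows_eq i hi, toMat_wordList w hw, yG, map_list_prod, List.map_map]
  rfl

theorem yG_out {i : ℕ} (hi : 6 ≤ i) : yG w hw i = 1 := by
  obtain ⟨k, rfl⟩ : ∃ k, i = k + 6 := ⟨i - 6, by omega⟩
  rfl

theorem prodRows_spec : ∀ v : List ℕ, (∀ x ∈ v, x < 6) →
    (prodRows v).length = 14 ∧ matHom ((v.map (yG w hw)).prod) = toMat w (prodRows v)
  | [], _ => ⟨rfl, by simp [prodRows, toMat_one]⟩
  | a :: v, h => by
    obtain ⟨hl, hv⟩ := prodRows_spec v fun x hx => h x (List.mem_cons_of_mem _ hx)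
    have ha := h a List.mem_cons_self
    rw [prodRows, forceRows_eq]
    refine ⟨by simp [mm, length_genRows a ha], ?_⟩
    rw [List.map_cons, List.prod_cons, map_mul, hv, mat_yG w hw ha, toMat_mm w hw _ _ hl]

omit hw in
theorem evalW_prod {G : Type*} [Group G] (g : ℕ → G) : ∀ v : List ℕ, evalW g v = (v.reverse.map g).prod
  | [] => rfl
  | a :: v => by simp [evalW, evalW_prod g v]

theorem rels_yG : ∀ v ∈ rels24, evalW (yG w hw) v = 1 := by
  intro v hv
  have hlt : rels24.all (fun v => v.all fun x => decide (x < 6)) = true := by decide +kernel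
  have h := List.all_eq_true.1 rels_check v hv
  obtain ⟨-, hm⟩ := prodRows_spec w hw v.reverse fun x hx =>
    of_decide_eq_true (List.all_eq_true.1 (List.all_eq_true.1 hlt v hv) x (List.mem_reverse.1 hx))
  refine matHom_inj w hw ?_
  rw [evalW_prod, hm, eq_of_beq h, toMat_one, map_one]

theorem yG_sq (i : ℕ) : yG w hw i * yG w hw i = 1 := by
  rcases Nat.lt_or_ge i 6 with hi | hi
  · have h := rels_yG w hw [i, i] (by
      have : ∀ j < 6, [j, j] ∈ rels24 := by decide +kernel
      exact this i hi)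
    simpa [evalW] using h
  · rw [yG_out w hw hi, one_mul]

/-- The pairs. -/
def zP (i : ℕ) : Cfsg.Spor.Suz × ↥(chevG2.group K) := (PresSuz.gens i, yG w hw i)

theorem zP_out {i : ℕ} (hi : 7 ≤ i) : zP w hw i = 1 := by
  rw [zP, PresSuz.gens_out i hi, yG_out w hw (le_trans (by omega) hi)]
  rfl

theorem zP_sq (i : ℕ) : zP w hw i * zP w hw i = 1 :=
  Prod.ext (PresSuz.gens_sq i) (yG_sq w hw i)

theorem zP_rels {ws : List (List ℕ)} (m : ℕ → ℕ)
    (h1 : ws.all (fun v => decide (v.map m ∈ PresSuz.relList ++ ([] : List (List ℕ)))) = true)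
    (h2 : ws.all (fun v => decide (v.map m ∈ rels24)) = true) :
    ∀ v ∈ ws, evalW (fun x => zP w hw (m x)) v = 1 := fun v hv => by
  refine Prod.ext ?_ ?_
  · show MonoidHom.fst _ _ (evalW (fun x => zP w hw (m x)) v) = 1
    rw [evalW_hom]
    exact SuzOrd.rels_hold m h1 v hv
  · show MonoidHom.snd _ _ (evalW (fun x => zP w hw (m x)) v) = 1
    rw [evalW_hom]
    show evalW (fun x => yG w hw (m x)) v = 1
    rw [evalW_map]
    exact rels_yG w hw _ (of_decide_eq_true (List.all_eq_true.1 h2 v hv))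

/-- The diagonal subgroup. -/
def diag : Subgroup (Cfsg.Spor.Suz × ↥(chevG2.group K)) :=
  Subgroup.closure {g | ∃ x < SuzOrd.SuzL2.tbl.ng, g = zP w hw (SuzOrd.mSuzL2 x)}

theorem diag_card : Finite ↥(diag w hw) ∧ Nat.card ↥(diag w hw) ≤ 251596800 := by
  obtain ⟨f0, b0⟩ := SuzOrd.SuzL0.checked.card_le (fun x => zP w hw (SuzOrd.mSuzL0 x)) (fun x => zP_sq w hw _)
    (zP_out w hw (by decide)) (zP_rels w hw SuzOrd.mSuzL0 (by decide +kernel) (by decide +kernel))
    (Subgroup.closure {g | ∃ x < SuzOrd.SuzL0.tbl.ng, g = zP w hw (SuzOrd.mSuzL0 x)}) ⊥ rfl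
    (closure_nil (fun x => zP w hw (SuzOrd.mSuzL0 x))) inferInstance
  rw [Subgroup.card_bot] at b0
  obtain ⟨f1, b1⟩ := SuzOrd.SuzL1.checked.card_le (fun x => zP w hw (SuzOrd.mSuzL1 x)) (fun x => zP_sq w hw _)
    (zP_out w hw (by decide)) (zP_rels w hw SuzOrd.mSuzL1 (by decide +kernel) (by decide +kernel))
    (Subgroup.closure {g | ∃ x < SuzOrd.SuzL1.tbl.ng, g = zP w hw (SuzOrd.mSuzL1 x)}) _ rfl
    (closure_chain (zP w hw) SuzOrd.mSuzL0 SuzOrd.mSuzL1 SuzOrd.SuzL0.tbl.ng SuzOrd.SuzL1.tbl.subs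
      (by decide +kernel)).symm f0
  obtain ⟨f2, b2⟩ := SuzOrd.SuzL2.checked.card_le (fun x => zP w hw (SuzOrd.mSuzL2 x)) (fun x => zP_sq w hw _)
    (zP_out w hw (by decide)) (zP_rels w hw SuzOrd.mSuzL2 (by decide +kernel) (by decide +kernel))
    (diag w hw) _ rfl
    (closure_chain (zP w hw) SuzOrd.mSuzL1 SuzOrd.mSuzL2 SuzOrd.SuzL1.tbl.ng SuzOrd.SuzL2.tbl.subs
      (by decide +kernel)).symm f1
  refine ⟨f2, ?_⟩
  rw [show SuzOrd.SuzL0.tbl.n = 2160 from rfl] at b0
  rw [show SuzOrd.SuzL1.tbl.n = 280 from rfl] at b1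
  rw [show SuzOrd.SuzL2.tbl.n = 416 from rfl] at b2
  omega

theorem xS_mem (r : Fin chevG2.nroots) (c : C4) :
    xS w hw r c ∈ (diag w hw).map (MonoidHom.snd _ _) := by
  have hy : ∀ i < 6, yG w hw i ∈ (diag w hw).map (MonoidHom.snd _ _) := fun i hi => by
    refine ⟨zP w hw i, Subgroup.subset_closure ⟨i, hi, ?_⟩, rfl⟩
    have : ∀ j < 6, SuzOrd.mSuzL2 j = j := by decide
    rw [this i hi]
  have hlen : ∀ k < 24, ∀ x ∈ rootWords.getD k [], x < 6 := by decide +kernel
  have hprod : ∀ v : List ℕ, (∀ x ∈ v, x < 6) →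
      (v.map (yG w hw)).prod ∈ (diag w hw).map (MonoidHom.snd _ _) := fun v hv =>
    list_prod_mem (fun g hg => by
      obtain ⟨i, hi, rfl⟩ := List.mem_map.1 hg
      exact hy i (hv i hi))
  have h0 := List.all_eq_true.1 root_check r (List.mem_finRange r)
  simp only [Bool.and_eq_true] at h0
  have hr : r.val < 12 := r.isLt
  have hx : ∀ c' : C4, matHom (xS w hw r c') = toMat w (xList r c') := fun c' =>
    (toMat_xList w hw (xListOK_all r c'.1 c'.2)).symm
  have he : ∀ (k : ℕ) (c' : C4), k < 24 → prodRows (rootWords.getD k []) = xList r c' →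
      xS w hw r c' ∈ (diag w hw).map (MonoidHom.snd _ _) := fun k c' hk e => by
    have hm := (prodRows_spec w hw _ (hlen k hk)).2
    rw [e, ← hx] at hm
    exact matHom_inj w hw hm ▸ hprod _ (hlen k hk)
  have m1 := he _ (true, false) (by omega) (eq_of_beq h0.1.1.1)
  have m2 := he _ (false, true) (by omega) (eq_of_beq h0.1.1.2)
  obtain ⟨a, b⟩ := c
  cases a <;> cases b
  · have e : xS w hw r (false, false) = 1 :=
      matHom_inj w hw (by rw [hx, eq_of_beq h0.2, toMat_one, map_one])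
    rw [e]; exact one_mem _
  · exact m2
  · exact m1
  · have e : xS w hw r (true, true) = xS w hw r (true, false) * xS w hw r (false, true) :=
      matHom_inj w hw (by rw [map_mul, hx, hx, hx, ← eq_of_beq h0.1.2, toMat_mm w hw _ _ (length_xList _ _)])
    rw [e]; exact mul_mem m1 m2

theorem diag_map_snd [Fintype K] (hK : Fintype.card K = 4) :
    (diag w hw).map (MonoidHom.snd _ _) = ⊤ := by
  have hinj : Function.Injective (cv w) := by
    have h0 : w ≠ 0 := fun e => by rw [e] at hw; simp at hw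
    have h1 : w ≠ 1 := fun e => by rw [e] at hw; simp at hw
    have h01 : (1 : K) + w ≠ 0 := fun e => h1 (CharTwo.add_eq_zero.1 e).symm
    have hz : ∀ c : C4, cv w c = 0 → c = (false, false) := by
      rintro ⟨a, b⟩ h
      cases a <;> cases b
      · rfl
      · exact absurd (by simpa [cv, bK] using h) h0
      · exact absurd h (by simp [cv, bK])
      · exact absurd (by simpa [cv, bK] using h) h01
    intro x y h
    have e := hz (cadd x y) (by rw [cv_add, h, CharTwo.add_self_eq_zero])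
    obtain ⟨a, b⟩ := x
    obtain ⟨c, d⟩ := y
    revert e
    cases a <;> cases b <;> cases c <;> cases d <;> decide
  have hsur : Function.Surjective (cv w) :=
    ((Fintype.bijective_iff_injective_and_card _).2 ⟨hinj, by simp [hK]⟩).2
  rw [eq_top_iff]
  rintro g -
  have hle : chevG2.group K ≤ ((diag w hw).map (MonoidHom.snd _ _)).map (chevG2.group K).subtype := by
    refine (Subgroup.closure_le _).2 ?_
    rintro m ⟨r, t, hm⟩
    obtain ⟨c, rfl⟩ := hsur t
    exact ⟨xS w hw r c, xS_mem w hw r c, Units.ext hm.symm⟩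
  obtain ⟨g', hg', he⟩ := hle g.2
  exact Subtype.ext he ▸ hg'

omit hw in
theorem exists_w [Fintype K] (hK : Fintype.card K = 4) : ∃ x : K, x * x = x + 1 := by
  classical
  obtain ⟨x, -, hx⟩ := Finset.exists_mem_notMem_of_card_lt_card
    (s := ({0, 1} : Finset K)) (t := Finset.univ)
    (lt_of_le_of_lt Finset.card_le_two (by rw [Finset.card_univ, hK]; norm_num))
  simp only [Finset.mem_insert, Finset.mem_singleton, not_or] at hx
  have h4 := FiniteField.pow_card x
  rw [hK] at h4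
  refine ⟨x, ?_⟩
  have hf : x * (x + 1) * (x * x + x + 1) = x ^ 4 - x + 2 * (x ^ 3 + x ^ 2 + x) := by ring
  rw [h4, sub_self, zero_add, show (2 : K) = 0 from CharTwo.two_eq_zero, zero_mul] at hf
  rcases mul_eq_zero.1 hf with e | e
  · rcases mul_eq_zero.1 e with e | e
    · exact absurd e hx.1
    · exact absurd (CharTwo.add_eq_zero.1 e) hx.2
  · rw [add_assoc] at e
    exact CharTwo.add_eq_zero.1 e

omit hw in
theorem exists_iso_of_w [Fintype K] (hK : Fintype.card K = 4) :
    ∃ H : Subgroup Cfsg.Spor.Suz,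
      H = ((Subgroup.closure ({Cfsg.Spor.Suz.a, Cfsg.Spor.Suz.b, Cfsg.Spor.Suz.c, Cfsg.Spor.Suz.d, Cfsg.Spor.Suz.e,
        Cfsg.Spor.Suz.f} : Set (FreeGroup Cfsg.Spor.Suz.Gen))).map
        (PresentedGroup.mk (Cfsg.Spor.coxRelators Cfsg.Spor.Suz.edges ∪ {r | r ∈ Cfsg.Spor.Suz.extra}))) ∧
      Nonempty (↥H ≃* ↥(chevG2.group K)) := by
  classical
  obtain ⟨x, hw⟩ := exists_w (K := K) hK
  set H := ((Subgroup.closure ({Cfsg.Spor.Suz.a, Cfsg.Spor.Suz.b, Cfsg.Spor.Suz.c, Cfsg.Spor.Suz.d, Cfsg.Spor.Suz.e,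
        Cfsg.Spor.Suz.f} : Set (FreeGroup Cfsg.Spor.Suz.Gen))).map
        (PresentedGroup.mk (Cfsg.Spor.coxRelators Cfsg.Spor.Suz.edges ∪ {r | r ∈ Cfsg.Spor.Suz.extra}))) with hHdef
  refine ⟨H, rfl, ?_⟩
  have hH : (diag x hw).map (MonoidHom.fst _ _) = H := by
    rw [hHdef, diag, MonoidHom.map_closure, MonoidHom.map_closure]
    congr 1
    ext g
    constructor
    · rintro ⟨z, ⟨i, hi, rfl⟩, rfl⟩
      change i < 6 at hi
      interval_cases i <;> simp [zP, SuzOrd.mSuzL2, PresSuz.gens, PresentedGroup.of]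
    · simp only [Set.image_insert_eq, Set.image_singleton, Set.mem_insert_iff, Set.mem_singleton_iff]
      rintro (rfl | rfl | rfl | rfl | rfl | rfl)
      · exact ⟨_, ⟨0, by decide, rfl⟩, rfl⟩
      · exact ⟨_, ⟨1, by decide, rfl⟩, rfl⟩
      · exact ⟨_, ⟨2, by decide, rfl⟩, rfl⟩
      · exact ⟨_, ⟨3, by decide, rfl⟩, rfl⟩
      · exact ⟨_, ⟨4, by decide, rfl⟩, rfl⟩
      · exact ⟨_, ⟨5, by decide, rfl⟩, rfl⟩
  haveI := (SuzOrd.finite_and_card_le).1
  have hHc : Nat.card ↥H = 251596800 := by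
    have h := H.index_mul_card
    have hi : H.index = 1782 := hHdef ▸ Cfsg.Agent.S1680.result.1
    rw [hi, SuzOrd.isSimple_and_card.2] at h
    omega
  have hGc : Nat.card ↥(chevG2.group K) = 251596800 := by
    rw [Cfsg.Agent.Chev.orderG2 hK]
    norm_num
  obtain ⟨hfin, hD⟩ := diag_card x hw
  haveI := hfin
  have b1 := Function.Surjective.bijective_of_nat_card_le
    ((MonoidHom.fst _ _).subgroupMap_surjective (diag x hw)) (by rw [hH, hHc]; exact hD)
  have b2 := Function.Surjective.bijective_of_nat_card_le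
    ((MonoidHom.snd _ _).subgroupMap_surjective (diag x hw))
    (by rw [diag_map_snd x hw hK, Subgroup.card_top, hGc]; exact hD)
  exact ⟨(((MulEquiv.ofBijective _ b1).trans (MulEquiv.subgroupCongr hH)).symm.trans
    ((MulEquiv.ofBijective _ b2).trans (MulEquiv.subgroupCongr (diag_map_snd x hw hK)))).trans Subgroup.topEquiv⟩

omit hw in
theorem exists_iso : ∃ (F : Type) (_ : Field F) (_ : Fintype F), Fintype.card F = 4 ∧
    Nonempty (↥((Subgroup.closure ({Cfsg.Spor.Suz.a, Cfsg.Spor.Suz.b, Cfsg.Spor.Suz.c, Cfsg.Spor.Suz.d,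
      Cfsg.Spor.Suz.e, Cfsg.Spor.Suz.f} : Set (FreeGroup Cfsg.Spor.Suz.Gen))).map
      (PresentedGroup.mk (Cfsg.Spor.coxRelators Cfsg.Spor.Suz.edges ∪ {r | r ∈ Cfsg.Spor.Suz.extra}))) ≃*
        ↥(chevG2.group F)) := by
  haveI : Fact (Nat.Prime 2) := ⟨Nat.prime_two⟩
  letI : Fintype (GaloisField 2 2) := Fintype.ofFinite _
  have h4 : Fintype.card (GaloisField 2 2) = 4 := by
    rw [← Nat.card_eq_fintype_card, GaloisField.card 2 2 (by norm_num)]; norm_num
  obtain ⟨H, rfl, h⟩ := exists_iso_of_w (K := GaloisField 2 2) h4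
  exact ⟨_, inferInstance, inferInstance, h4, h⟩

end Cfsg.Agent.G24Iso
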