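import Cfsg.Prelude.Def_ChevG2

/-!
# Checkable arithmetic for 14 × 14 matrices over the field with four elements

An entry is a pair of bits `(a, b)` standing for `a + b w` with `w * w = w + 1`; a row is a pair of bit masks.
-/

set_option autoImplicit false
set_option maxHeartbeats 1000000
set_option linter.unusedSectionVars false

namespace Cfsg.Agent.G24Iso

open Cfsg.Lie
open scoped Matrix

/-- A code of an element of the field with four elements. -/
abbrev C4 : Type := Bool × Bool

/-- Sum of codes. -/
def cadd (x y : C4) : C4 := (xor x.1 y.1, xor x.2 y.2)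
/-- Product of codes. -/
def cmul (x y : C4) : C4 :=
  (xor (x.1 && y.1) (x.2 && y.2), xor (xor (x.1 && y.2) (x.2 && y.1)) (x.2 && y.2))
/-- Powers of codes. -/
def cpow (x : C4) : ℕ → C4
  | 0 => (true, false)
  | k + 1 => cmul (cpow x k) x
/-- Code of an integer. -/
def cint (m : ℤ) : C4 := (m.natAbs % 2 == 1, false)
/-- Code of a polynomial value. -/
def cpoly (x : C4) : List (ℕ × ℤ) → C4
  | [] => (false, false)
  | p :: l => cadd (cmul (cint p.2) (cpow x p.1)) (cpoly x l)

variable {K : Type*} [Field K] [CharP K 2] (w : K)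

/-- A bit as a field element. -/
def bK (b : Bool) : K := if b then 1 else 0
/-- The value of a code. -/
def cv (x : C4) : K := bK x.1 + bK x.2 * w

theorem bK_xor (a b : Bool) : (bK (xor a b) : K) = bK a + bK b := by
  cases a <;> cases b <;> simp [bK, CharTwo.add_self_eq_zero]

theorem bK_and (a b : Bool) : (bK (a && b) : K) = bK a * bK b := by
  cases a <;> cases b <;> simp [bK]

theorem cv_add (x y : C4) : cv w (cadd x y) = cv w x + cv w y := by
  simp only [cv, cadd, bK_xor]; ring

theorem cv_mul (hw : w * w = w + 1) (x y : C4) : cv w (cmul x y) = cv w x * cv w y := by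
  simp only [cv, cmul, bK_xor, bK_and]
  linear_combination (-(bK x.2 * bK y.2) : K) * hw

theorem cv_pow (hw : w * w = w + 1) (x : C4) : ∀ k : ℕ, cv w (cpow x k) = cv w x ^ k
  | 0 => by simp [cpow, cv, bK]
  | k + 1 => by rw [cpow, cv_mul w hw, cv_pow hw x k, pow_succ]

theorem cv_int (m : ℤ) : cv w (cint m) = (m : K) := by
  have h : ∀ n : ℕ, cv w (n % 2 == 1, false) = (n : K) := fun n => by
    rw [CharP.cast_eq_mod K 2 n]
    rcases Nat.mod_two_eq_zero_or_one n with e | e <;> simp [cv, bK, e]
  rcases Int.natAbs_eq m with e | e <;> rw [cint, h] <;> conv_rhs => rw [e]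
  · simp
  · simp [CharTwo.neg_eq]

/-- The value of a polynomial. -/
def pval (t : K) (l : List (ℕ × ℤ)) : K := (l.map fun p => ((p.2 : ℤ) : K) * t ^ p.1).sum

theorem cv_poly (hw : w * w = w + 1) (x : C4) : ∀ l : List (ℕ × ℤ), cv w (cpoly x l) = pval (cv w x) l
  | [] => by simp [cpoly, cv, bK, pval]
  | p :: l => by
    rw [cpoly, cv_add, cv_mul w hw, cv_int, cv_pow w hw, cv_poly hw x l]
    simp [pval]

/-- A row of bit masks. -/
abbrev Row : Type := ℕ × ℕ

/-- A matrix as a list of rows. -/
abbrev M14 : Type := List Row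

/-- An entry of a row. -/
def rget (p : Row) (j : ℕ) : C4 := (p.1.testBit j, p.2.testBit j)

/-- An entry of a matrix. -/
def mget (A : M14) (i j : ℕ) : C4 := rget (A.getD i (0, 0)) j

/-- Addition of rows. -/
def radd (p q : Row) : Row := (p.1 ^^^ q.1, p.2 ^^^ q.2)

/-- A row times a code. -/
def rsc (c : C4) (p : Row) : Row :=
  radd (bif c.1 then p else (0, 0)) (bif c.2 then (p.2, p.1 ^^^ p.2) else (0, 0))

/-- A row times a matrix. -/
def comb (lo hi : ℕ) : M14 → Row
  | [] => (0, 0)
  | p :: B => radd (rsc (lo.testBit 0, hi.testBit 0) p) (comb (lo / 2) (hi / 2) B)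

/-- The product. -/
def mm (A B : M14) : M14 := A.map fun p => comb p.1 p.2 B

theorem cv_rget_zero (j : ℕ) : cv w (rget (0, 0) j) = 0 := by simp [rget, cv, bK]

theorem rget_radd (p q : Row) (j : ℕ) : rget (radd p q) j = cadd (rget p j) (rget q j) := by
  simp [rget, radd, cadd, Nat.testBit_xor]

theorem rget_rsc (c : C4) (p : Row) (j : ℕ) : rget (rsc c p) j = cmul c (rget p j) := by
  obtain ⟨a, b⟩ := c
  cases a <;> cases b <;> simp [rget, rsc, radd, cmul, Nat.testBit_xor] <;>
    cases p.1.testBit j <;> cases p.2.testBit j <;> rfl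

theorem cv_comb (hw : w * w = w + 1) : ∀ (B : M14) (lo hi j : ℕ),
    cv w (rget (comb lo hi B) j) = ∑ k ∈ Finset.range B.length, cv w (rget (lo, hi) k) * cv w (mget B k j)
  | [], lo, hi, j => by simp [comb, cv_rget_zero]
  | p :: B, lo, hi, j => by
    rw [comb, rget_radd, cv_add, rget_rsc, cv_mul w hw, cv_comb hw B, List.length_cons,
      Finset.sum_range_succ', add_comm]
    congr 1
    refine Finset.sum_congr rfl fun k _ => ?_
    simp [rget, mget, Nat.testBit_div_two]

/-- Coordinates of the index set. -/
def ix : chevG2.Idx → ℕ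
  | Sum.inl i => i.val
  | Sum.inr u => 2 + u.val

/-- The coordinate of a number below fourteen. -/
def idxEquiv : chevG2.Idx ≃ Fin 14 := finSumFinEquiv

theorem idxEquiv_val (i : chevG2.Idx) : (idxEquiv i).val = ix i := by
  rcases i with i | u <;> rfl

/-- The matrix of a list of rows. -/
def toMat (A : M14) : Matrix chevG2.Idx chevG2.Idx K := fun i j => cv w (mget A (ix i) (ix j))

theorem toMat_mm (hw : w * w = w + 1) (A B : M14) (hB : B.length = 14) :
    (toMat w (mm A B) : Matrix chevG2.Idx chevG2.Idx K) = toMat w A * toMat w B := by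
  ext i j
  rw [Matrix.mul_apply]
  have h : mget (mm A B) (ix i) (ix j) = rget (comb (A.getD (ix i) (0, 0)).1 (A.getD (ix i) (0, 0)).2 B) (ix j) ∨
      (cv w (mget (mm A B) (ix i) (ix j)) = 0 ∧ A.getD (ix i) (0, 0) = (0, 0)) := by
    by_cases hi : ix i < A.length
    · left; simp [mget, mm, List.getD_eq_getElem?_getD, hi]
    · right
      constructor <;> simp [mget, mm, List.getD_eq_getElem?_getD, Nat.not_lt.1 hi, cv_rget_zero]
  have hs : ∑ k, toMat w A i k * toMat w B k j = cv w (rget (comb (A.getD (ix i) (0, 0)).1 (A.getD (ix i) (0, 0)).2 B) (ix j)) := by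
    rw [cv_comb w hw, hB, ← Fin.sum_univ_eq_sum_range
      (fun k => cv w (rget ((A.getD (ix i) (0, 0)).1, (A.getD (ix i) (0, 0)).2) k) * cv w (mget B k (ix j))) 14]
    refine Fintype.sum_equiv idxEquiv _ _ fun k => ?_
    rw [idxEquiv_val]
    rfl
  show cv w (mget (mm A B) (ix i) (ix j)) = _
  rw [hs]
  rcases h with h | ⟨h, h0⟩
  · rw [h]
  · rw [h, cv_comb w hw]
    refine (Finset.sum_eq_zero fun k _ => ?_).symm
    rw [h0, cv_rget_zero, zero_mul]

/-- The identity. -/
def one14 : M14 := (List.range 14).map fun i => (2 ^ i, 0)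

theorem toMat_one : (toMat w one14 : Matrix chevG2.Idx chevG2.Idx K) = 1 := by
  ext i j
  have h : ∀ a < 14, ∀ b < 14, mget one14 a b = (decide (a = b), false) := by decide
  show cv w (mget one14 (ix i) (ix j)) = _
  rw [h (ix i) (by rw [← idxEquiv_val]; exact Fin.isLt _) (ix j) (by rw [← idxEquiv_val]; exact Fin.isLt _)]
  have hinj : ix i = ix j ↔ i = j :=
    ⟨fun e => idxEquiv.injective (Fin.ext (by rw [idxEquiv_val, idxEquiv_val, e])), congrArg _⟩
  by_cases hij : i = j
  · subst hij; simp [cv, bK]
  · simp [cv, bK, hinj, hij, Matrix.one_apply_ne hij]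

/-- The polynomial entries of a root element. -/
def xPoly (r : Fin chevG2.nroots) (row col : chevG2.Idx) : List (ℕ × ℤ) :=
  match col with
  | Sum.inl i =>
    (match row with
     | Sum.inl i' => if i' = i then [(0, 1)] else []
     | Sum.inr u => if u = r then [(1, - ((chevG2.cartanSR.getD i.val #[]).getD r.val 0))] else [])
  | Sum.inr s =>
    if s = r then (match row with | Sum.inr u => if u = r then [(0, 1)] else [] | Sum.inl _ => [])
    else if s.val = chevG2.negIdx.getD r.val 0 then
      (match row with
       | Sum.inl i => [(1, (chevG2.coroot.getD r.val #[]).getD i.val 0)]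
       | Sum.inr u => if u = s then [(0, 1)] else if u = r then [(2, -1)] else [])
    else
      (match row with
       | Sum.inl _ => []
       | Sum.inr u => (if u = s then [(0, 1)] else []) ++ chevG2.chainCoeff r.val s.val u.val)

theorem xMat_eq_poly (r : Fin chevG2.nroots) (t : K) (row col : chevG2.Idx) :
    chevG2.xMat K r t row col = pval t (xPoly r row col) := by
  rcases col with i | s <;> rcases row with i' | u <;>
    simp only [ChevalleyDatum.xMat, Matrix.of_apply, xPoly] <;>
    (repeat' split_ifs) <;> simp [pval]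

/-- All coordinates. -/
def allIdx : List chevG2.Idx := (List.finRange 2).map Sum.inl ++ (List.finRange 12).map Sum.inr

theorem mem_allIdx (i : chevG2.Idx) : i ∈ allIdx := by
  rcases i with i | u
  · exact List.mem_append_left _ (List.mem_map_of_mem (List.mem_finRange i))
  · exact List.mem_append_right _ (List.mem_map_of_mem (List.mem_finRange u))

/-- Pack a list of bits. -/
def packBits : List Bool → ℕ
  | [] => 0
  | b :: l => (bif b then 1 else 0) + 2 * packBits l

/-- The rows of a root element. -/
def xList (r : Fin chevG2.nroots) (t : C4) : M14 :=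
  allIdx.map fun i => (packBits (allIdx.map fun j => (cpoly t (xPoly r i j)).1),
    packBits (allIdx.map fun j => (cpoly t (xPoly r i j)).2))

/-- The check that the rows are right. -/
def xListOK (r : Fin chevG2.nroots) (t : C4) : Bool :=
  decide ((xList r t).length = 14) &&
    allIdx.all fun i => allIdx.all fun j => mget (xList r t) (ix i) (ix j) == cpoly t (xPoly r i j)

theorem toMat_xList (hw : w * w = w + 1) {r : Fin chevG2.nroots} {t : C4} (h : xListOK r t = true) :
    toMat w (xList r t) = chevG2.xMat K r (cv w t) := by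
  ext i j
  simp only [xListOK, Bool.and_eq_true, List.all_eq_true] at h
  rw [xMat_eq_poly, ← cv_poly w hw]
  exact congrArg (cv w) (eq_of_beq (h.2 i (mem_allIdx i) j (mem_allIdx j)))

theorem xListOK_all : ∀ (r : Fin chevG2.nroots) (a b : Bool), xListOK r (a, b) = true := by
  decide +kernel

theorem length_xList (r : Fin chevG2.nroots) (t : C4) : (xList r t).length = 14 := by
  rw [xList, List.length_map]; rfl

/-- A word in root elements as rows. -/
def wordList : List (Fin chevG2.nroots × C4) → M14
  | [] => one14
  | p :: l => mm (xList p.1 p.2) (wordList l)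

theorem length_wordList : ∀ l, (wordList l).length = 14
  | [] => rfl
  | p :: l => by simp [wordList, mm, length_xList]

theorem toMat_wordList (hw : w * w = w + 1) : ∀ l : List (Fin chevG2.nroots × C4),
    toMat w (wordList l) = (l.map fun p => chevG2.xMat K p.1 (cv w p.2)).prod
  | [] => by simp [wordList, toMat_one]
  | p :: l => by
    rw [wordList, toMat_mm w hw _ _ (length_wordList l), toMat_xList w hw (xListOK_all p.1 p.2.1 p.2.2),
      toMat_wordList hw l, List.map_cons, List.prod_cons]

end Cfsg.Agent.G24Iso
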