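import Cfsg.Agent.G24Iso.Main
import Cfsg.Agent.G24Iso.PrimData
import Cfsg.Agent.G24Iso.J2Gens

/-!
# G2(4) on 416 points is extremely primitive
-/

set_option autoImplicit false
set_option maxHeartbeats 1000000
set_option maxRecDepth 20000
set_option linter.unusedSectionVars false

universe u

namespace Cfsg.Agent.G24Iso

open Cfsg.Lie Cfsg.Agent.Screen.CosetEnum
open scoped Matrix MatrixGroups

theorem evalW_if {A : Type*} [Group A] (z : ℕ → A) (n : ℕ) : ∀ v : List ℕ, (∀ x ∈ v, x < n) →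
    evalW (fun x => if x < n then z x else 1) v = evalW z v
  | [], _ => rfl
  | a :: v, h => by
    rw [evalW, evalW, evalW_if z n v fun x hx => h x (List.mem_cons_of_mem _ hx)]
    simp [h a List.mem_cons_self]

section bounds

variable {A : Type*} [Group A] (z : ℕ → A) (hsq : ∀ x, z x * z x = 1)
include hsq

theorem card_five (hout : ∀ x, 5 ≤ x → z x = 1) (hr : ∀ v ∈ rels5, evalW z v = 1) :
    Finite ↥(Subgroup.closure {g : A | ∃ x < 5, g = z x}) ∧
      Nat.card ↥(Subgroup.closure {g : A | ∃ x < 5, g = z x}) ≤ 604800 := by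
  have hz : ∀ (m : ℕ → ℕ) (ws : List (List ℕ)), ws.all (fun v => decide (v.map m ∈ rels5)) = true →
      ∀ v ∈ ws, evalW (fun x => z (m x)) v = 1 := fun m ws h v hv => by
    rw [evalW_map]
    exact hr _ (of_decide_eq_true (List.all_eq_true.1 h v hv))
  obtain ⟨f0, b0⟩ := SuzOrd.SuzL0.checked.card_le (fun x => z (SuzOrd.mSuzL0 x)) (fun x => hsq _)
    (hout _ (by decide)) (hz SuzOrd.mSuzL0 _ (by decide +kernel))
    (Subgroup.closure {g | ∃ x < SuzOrd.SuzL0.tbl.ng, g = z (SuzOrd.mSuzL0 x)}) ⊥ rfl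
    (closure_nil (fun x => z (SuzOrd.mSuzL0 x))) inferInstance
  rw [Subgroup.card_bot] at b0
  obtain ⟨f1, b1⟩ := SuzOrd.SuzL1.checked.card_le (fun x => z (SuzOrd.mSuzL1 x)) (fun x => hsq _)
    (hout _ (by decide)) (hz SuzOrd.mSuzL1 _ (by decide +kernel))
    (Subgroup.closure {g | ∃ x < SuzOrd.SuzL1.tbl.ng, g = z (SuzOrd.mSuzL1 x)}) _ rfl
    (closure_chain z SuzOrd.mSuzL0 SuzOrd.mSuzL1 SuzOrd.SuzL0.tbl.ng SuzOrd.SuzL1.tbl.subs
      (by decide +kernel)).symm f0
  have e : Subgroup.closure {g : A | ∃ x < 5, g = z x} =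
      Subgroup.closure {g | ∃ x < SuzOrd.SuzL1.tbl.ng, g = z (SuzOrd.mSuzL1 x)} := by
    congr 1
    ext g
    have hm : ∀ x < 5, SuzOrd.mSuzL1 x = x := by decide
    exact exists_congr fun x => and_congr_right fun hx => by rw [hm x hx]
  rw [e]
  refine ⟨f1, ?_⟩
  rw [show SuzOrd.SuzL0.tbl.n = 2160 from rfl] at b0
  rw [show SuzOrd.SuzL1.tbl.n = 280 from rfl] at b1
  omega

theorem card_six (hout : ∀ x, 6 ≤ x → z x = 1) (hr : ∀ v ∈ rels24, evalW z v = 1) :
    Finite ↥(Subgroup.closure {g : A | ∃ x < 6, g = z x}) ∧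
      Nat.card ↥(Subgroup.closure {g : A | ∃ x < 6, g = z x}) ≤
        416 * Nat.card ↥(Subgroup.closure {g : A | ∃ x < 5, g = z x}) ∧
      Nat.card ↥(Subgroup.closure {g : A | ∃ x < 5, g = z x}) ≤ 604800 := by
  set z5 : ℕ → A := fun x => if x < 5 then z x else 1 with hz5
  have e5 : ∀ v : List ℕ, (∀ x ∈ v, x < 5) → evalW z5 v = evalW z v := evalW_if z 5
  have h55 : Subgroup.closure {g : A | ∃ x < 5, g = z5 x} = Subgroup.closure {g : A | ∃ x < 5, g = z x} := by
    congr 1
    ext g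
    exact exists_congr fun x => and_congr_right fun hx => by simp [hz5, hx]
  have hsub : rels5.all (fun v => decide (v ∈ rels24) && v.all fun x => decide (x < 5)) = true := by decide +kernel
  obtain ⟨f5, b5⟩ := card_five z5 (fun x => by by_cases h : x < 5 <;> simp [hz5, h, hsq])
    (fun x hx => by simp [hz5, not_lt.2 hx]) (fun v hv => by
      have h := List.all_eq_true.1 hsub v hv
      rw [Bool.and_eq_true, List.all_eq_true] at h
      rw [e5 v fun x hx => of_decide_eq_true (h.2 x hx)]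
      exact hr v (of_decide_eq_true h.1))
  rw [h55] at f5 b5
  have hm : ∀ x < 6, SuzOrd.mSuzL2 x = x := by decide
  have hrel : ∀ v ∈ SuzOrd.SuzL2.tbl.rels, evalW z v = 1 := fun v hv =>
    hr v (of_decide_eq_true (List.all_eq_true.1
      (show SuzOrd.SuzL2.tbl.rels.all (fun v => decide (v ∈ rels24)) = true by decide +kernel) v hv))
  obtain ⟨f6, b6⟩ := SuzOrd.SuzL2.checked.card_le z hsq (hout _ le_rfl) hrel
    (Subgroup.closure {g : A | ∃ x < 6, g = z x}) (Subgroup.closure {g : A | ∃ x < 5, g = z x}) rfl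
    (closure_chain z (fun x => x) (fun x => x) 5 SuzOrd.SuzL2.tbl.subs (by decide +kernel)).symm f5
  exact ⟨f6, b6, b5⟩

end bounds

variable {K : Type u} [Field K] [CharP K 2] [Fintype K] (w : K) (hw : w * w = w + 1) (hK : Fintype.card K = 4)
include hw hK

theorem closure_yG : Subgroup.closure {g : ↥(chevG2.group K) | ∃ x < 6, g = yG w hw x} = ⊤ := by
  rw [← diag_map_snd w hw hK, diag, MonoidHom.map_closure]
  congr 1
  have hm : ∀ x < 6, SuzOrd.mSuzL2 x = x := by decide
  ext g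
  constructor
  · rintro ⟨x, hx, rfl⟩
    exact ⟨_, ⟨x, hx, rfl⟩, by rw [hm x hx]; rfl⟩
  · rintro ⟨_, ⟨x, hx, rfl⟩, rfl⟩
    exact ⟨x, hx, by rw [hm x hx]; rfl⟩

/-- The subgroup generated by the first five generators. -/
def jSub : Subgroup ↥(chevG2.group K) := Subgroup.closure {g | ∃ x < 5, g = yG w hw x}

theorem card_jSub : Nat.card ↥(jSub w hw) = 604800 := by
  obtain ⟨-, b6, b5⟩ := card_six (yG w hw) (yG_sq w hw) (fun x hx => yG_out w hw hx) (rels_yG w hw)
  rw [closure_yG w hw hK, Subgroup.card_top, Cfsg.Agent.Chev.orderG2 hK] at b6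
  rw [jSub]
  norm_num at b6
  omega

theorem iso_J2 : Cfsg.Spor.IsoJ2 ↥(jSub w hw) := by
  set z : ℕ → Cfsg.Spor.J2 × ↥(chevG2.group K) := fun x => (jEl x, if x < 5 then yG w hw x else 1) with hz
  have e5 := evalW_if (yG w hw) 5
  have hsub : rels5.all (fun v => decide (v ∈ rels24) && v.all fun x => decide (x < 5)) = true := by decide +kernel
  obtain ⟨hfin, hD⟩ := card_five z (fun x => Prod.ext (jEl_sq x) (by
      by_cases h : x < 5 <;> simp [hz, h, yG_sq w hw]))
    (fun x hx => Prod.ext (jEl_out hx) (by simp [hz, not_lt.2 hx]))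
    (fun v hv => by
      have h := List.all_eq_true.1 hsub v hv
      rw [Bool.and_eq_true, List.all_eq_true] at h
      refine Prod.ext ?_ ?_
      · show MonoidHom.fst _ _ (evalW z v) = 1
        rw [evalW_hom]
        exact rels_jEl v hv
      · show MonoidHom.snd _ _ (evalW z v) = 1
        rw [evalW_hom]
        exact (e5 v fun x hx => of_decide_eq_true (h.2 x hx)).trans (rels_yG w hw v (of_decide_eq_true h.1)))
  set D := Subgroup.closure {g | ∃ x < 5, g = z x} with hDdef
  have h1 : D.map (MonoidHom.fst _ _) = ⊤ := by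
    rw [hDdef, MonoidHom.map_closure, ← closure_jEl]
    congr 1
    ext g
    constructor
    · rintro ⟨_, ⟨x, hx, rfl⟩, rfl⟩; exact ⟨x, hx, rfl⟩
    · rintro ⟨x, hx, rfl⟩; exact ⟨_, ⟨x, hx, rfl⟩, rfl⟩
  have h2 : D.map (MonoidHom.snd _ _) = jSub w hw := by
    rw [hDdef, MonoidHom.map_closure, jSub]
    congr 1
    ext g
    constructor
    · rintro ⟨_, ⟨x, hx, rfl⟩, rfl⟩; exact ⟨x, hx, by simp [hz, hx]⟩
    · rintro ⟨x, hx, rfl⟩; exact ⟨_, ⟨x, hx, rfl⟩, by simp [hz, hx]⟩
  haveI := hfin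
  have b1 := Function.Surjective.bijective_of_nat_card_le
    ((MonoidHom.fst _ _).subgroupMap_surjective D) (by rw [h1, Subgroup.card_top, Cfsg.Agent.FGS2.J2.card_J2]; exact hD)
  have b2 := Function.Surjective.bijective_of_nat_card_le
    ((MonoidHom.snd _ _).subgroupMap_surjective D) (by rw [h2, card_jSub w hw hK]; exact hD)
  exact ⟨(((MulEquiv.ofBijective _ b2).trans (MulEquiv.subgroupCongr h2)).symm.trans
    ((MulEquiv.ofBijective _ b1).trans (MulEquiv.subgroupCongr h1))).trans Subgroup.topEquiv⟩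

theorem exists_action : ∃ f : ↥(chevG2.group K) →* Equiv.Perm (Fin SuzOrd.SuzL2.tbl.n),
    ∀ x < SuzOrd.SuzL2.tbl.ng, f (yG w hw x) = SuzOrd.SuzL2.checked.perm x := by
  set P : ℕ → Equiv.Perm (Fin SuzOrd.SuzL2.tbl.n) := SuzOrd.SuzL2.checked.perm with hP
  set z : ℕ → ↥(chevG2.group K) × Equiv.Perm (Fin SuzOrd.SuzL2.tbl.n) :=
    fun x => (yG w hw x, if x < 6 then P x else 1) with hz
  have e6 := evalW_if P 6
  have hsub : rels24.all (fun v => decide (v ∈ SuzOrd.SuzL2.tbl.rels) && v.all fun x => decide (x < 6)) = true := by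
    decide +kernel
  obtain ⟨hfin, b6, b5⟩ := card_six z (fun x => Prod.ext (yG_sq w hw x) (by
      by_cases h : x < 6 <;> simp [hz, hP, h, SuzOrd.SuzL2.checked.perm_sq]))
    (fun x hx => Prod.ext (yG_out w hw hx) (by simp [hz, not_lt.2 hx]))
    (fun v hv => by
      have h := List.all_eq_true.1 hsub v hv
      rw [Bool.and_eq_true, List.all_eq_true] at h
      refine Prod.ext ?_ ?_
      · show MonoidHom.fst _ _ (evalW z v) = 1
        rw [evalW_hom]
        exact rels_yG w hw v hv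
      · show MonoidHom.snd _ _ (evalW z v) = 1
        rw [evalW_hom]
        exact (e6 v fun x hx => of_decide_eq_true (h.2 x hx)).trans
          (SuzOrd.SuzL2.checked.perm_rel v (of_decide_eq_true h.1)))
  set D := Subgroup.closure {g | ∃ x < 6, g = z x} with hDdef
  have h1 : D.map (MonoidHom.fst _ _) = ⊤ := by
    rw [hDdef, MonoidHom.map_closure, ← closure_yG w hw hK]
    congr 1
    ext g
    constructor
    · rintro ⟨_, ⟨x, hx, rfl⟩, rfl⟩; exact ⟨x, hx, rfl⟩
    · rintro ⟨x, hx, rfl⟩; exact ⟨_, ⟨x, hx, rfl⟩, rfl⟩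
  haveI := hfin
  have hD : Nat.card ↥D ≤ 251596800 := b6.trans (by omega)
  have b1 := Function.Surjective.bijective_of_nat_card_le
    ((MonoidHom.fst _ _).subgroupMap_surjective D) (by
      rw [h1, Subgroup.card_top, Cfsg.Agent.Chev.orderG2 hK]; norm_num; exact hD)
  let e := ((MulEquiv.ofBijective _ b1).trans (MulEquiv.subgroupCongr h1)).trans Subgroup.topEquiv
  refine ⟨((MonoidHom.snd _ _).comp D.subtype).comp e.symm.toMonoidHom, fun x hx => ?_⟩
  have hx6 : x < 6 := hx
  have hmem : z x ∈ D := Subgroup.subset_closure ⟨x, hx6, rfl⟩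
  have : e.symm (yG w hw x) = ⟨z x, hmem⟩ := e.symm_apply_eq.2 rfl
  show (D.subtype (e.symm (yG w hw x))).2 = _
  rw [this]
  simp [hz, hP, hx6]

theorem extremely_primitive :
    IsCoatom (jSub w hw) ∧ ∀ x : ↥(chevG2.group K), x ∉ jSub w hw →
      IsCoatom ((jSub w hw ⊓ (jSub w hw).map (MulAut.conj x).toMonoidHom).subgroupOf (jSub w hw)) := by
  classical
  obtain ⟨f, hf⟩ := exists_action w hw hK
  have hT := SuzOrd.SuzL2.checked
  set J := jSub w hw with hJdef
  have hJ : J = Subgroup.closure {g | ∃ v ∈ SuzOrd.SuzL2.tbl.subs, g = evalW (yG w hw) v} :=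
    (closure_chain (yG w hw) (fun x => x) (fun x => x) 5 SuzOrd.SuzL2.tbl.subs (by decide +kernel)).symm
  have hgtop : Subgroup.closure (Set.range (yG w hw)) = ⊤ :=
    eq_top_iff.2 ((closure_yG w hw hK).ge.trans (Subgroup.closure_mono (by rintro _ ⟨x, -, rfl⟩; exact ⟨x, rfl⟩)))
  obtain ⟨e, he0, he⟩ := SuzOrd.SuzL2.checked.exists_equiv (yG w hw) (yG_sq w hw) (fun x hx => yG_out w hw hx)
    (fun v hv => rels_yG w hw v (of_decide_eq_true (List.all_eq_true.1
      (show SuzOrd.SuzL2.tbl.rels.all (fun v => decide (v ∈ rels24)) = true by decide +kernel) v hv)))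
    hgtop J hJ f hf
  set o : Fin SuzOrd.SuzL2.tbl.n := ⟨0, Tab.Checked.pos hT⟩ with ho
  have hfix : ∀ g, f g o = o ↔ g ∈ J := fun g => by
    rw [← e.apply_eq_iff_eq, ← he, he0, MulAction.Quotient.smul_mk, smul_eq_mul, mul_one, QuotientGroup.eq, mul_one,
      inv_mem_iff]
  obtain ⟨k1, hk1, -, ho1⟩ := SuzOrd.SuzL2.checked.orbit (yG w hw) hJ hf e he orb315
  obtain ⟨k2, hk2, -, ho2⟩ := SuzOrd.SuzL2.checked.orbit (yG w hw) hJ hf e he orb100
  have horb : ∀ {k c : Fin SuzOrd.SuzL2.tbl.n}, e c ∈ MulAction.orbit J (e k) ↔ ∃ h ∈ J, f h k = c := fun {k c} => by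
    constructor
    · rintro ⟨⟨h, hh⟩, hhc⟩
      change h • e k = e c at hhc
      rw [he] at hhc
      exact ⟨h, hh, e.injective hhc⟩
    · rintro ⟨h, hh, rfl⟩
      exact ⟨⟨h, hh⟩, he h k⟩
  have hcover : ∀ c : Fin SuzOrd.SuzL2.tbl.n, c ≠ o → bit orbMask315 c = true ∨ bit orbMask100 c = true := by
    intro c hc
    have h : (List.range 416).all (fun c => Nat.beq c 0 || bit orbMask315 c || bit orbMask100 c) = true := by
      decide +kernel
    have h' := List.all_eq_true.1 h c.val (List.mem_range.2 c.isLt)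
    simp only [Bool.or_eq_true] at h'
    rcases h' with (h' | h') | h'
    · exact absurd (Fin.ext (Nat.eq_of_beq_eq_true h')) hc
    · exact Or.inl h'
    · exact Or.inr h'
  refine ⟨⟨?_, fun L hL => ?_⟩, fun x hx => ?_⟩
  · intro htop
    have h6 : yG w hw 5 ∈ J := htop ▸ Subgroup.mem_top _
    have h1 := congrArg Fin.val ((hfix _).2 h6)
    rw [hf 5 (by decide), Tab.Checked.perm_apply _ (by decide)] at h1
    exact absurd (show SuzOrd.SuzL2.tbl.img 0 5 = 0 from h1) (by decide +kernel)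
  · obtain ⟨hle, hne⟩ := lt_iff_le_and_ne.1 hL
    obtain ⟨g, hgL, hgJ⟩ := SetLike.exists_of_lt hL
    have hw' : ∀ g ∈ L, ∀ u, f u o = f g o → u ∈ L := fun g hg u hu => by
      have : g⁻¹ * u ∈ J := (hfix _).1 (by rw [map_mul, Equiv.Perm.mul_apply, hu, map_inv]; simp)
      simpa using mul_mem hg (hle this)
    have y5o : f (yG w hw 5) o = k1 := Fin.ext (by
      rw [hf 5 (by decide), Tab.Checked.perm_apply _ (by decide), hk1]; show SuzOrd.SuzL2.tbl.img 0 5 = 1; decide +kernel)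
    have case1 : ∀ g ∈ L, bit orbMask315 (f g o : Fin SuzOrd.SuzL2.tbl.n) = true → L = ⊤ := fun g hg hb => by
      obtain ⟨h, hh, hhc⟩ := horb.1 ((ho1 (f g o)).2 hb)
      have h5 : h * yG w hw 5 ∈ L := hw' g hg _ (by rw [map_mul, Equiv.Perm.mul_apply, y5o, hhc])
      have h5' : yG w hw 5 ∈ L := by simpa using mul_mem (inv_mem (hle hh)) h5
      refine eq_top_iff.2 ((closure_yG w hw hK).ge.trans ((Subgroup.closure_le _).2 ?_))
      rintro _ ⟨y, hy, rfl⟩
      rcases Nat.lt_or_ge y 5 with hy5 | hy5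
      · exact hle (Subgroup.subset_closure ⟨y, hy5, rfl⟩)
      · obtain rfl : y = 5 := by omega
        exact h5'
    rcases hcover (f g o) (fun e => hgJ ((hfix g).1 e)) with hb | hb
    · exact case1 g hgL hb
    · obtain ⟨h, hh, hhc⟩ := horb.1 ((ho2 (f g o)).2 hb)
      have hv2 : f (evalW (yG w hw) wordV) o = k2 := Fin.ext (by
        rw [map_eval hf wordV (by decide), SuzOrd.SuzL2.checked.app_eq wordV (by decide), hk2]; show SuzOrd.SuzL2.tbl.app wordV 0 = 38; decide +kernel)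
      have hvh : h * evalW (yG w hw) wordV ∈ L := hw' g hgL _ (by rw [map_mul, Equiv.Perm.mul_apply, hv2, hhc])
      have hvL : evalW (yG w hw) wordV ∈ L := by simpa using mul_mem (inv_mem (hle hh)) hvh
      obtain ⟨h', hh', hh'c⟩ := horb.1 ((ho2 ⟨memM, by decide +kernel⟩).2 (by decide +kernel))
      refine case1 (evalW (yG w hw) wordV * h' * evalW (yG w hw) wordV) (mul_mem (mul_mem hvL (hle hh')) hvL) ?_
      rw [map_mul, map_mul, Equiv.Perm.mul_apply, Equiv.Perm.mul_apply, hv2, hh'c, map_eval hf wordV (by decide),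
        SuzOrd.SuzL2.checked.app_eq wordV (by decide)]
      decide +kernel
  · set c := f x o with hc
    have hco : c ≠ o := fun e => hx ((hfix x).1 e)
    have hS : ∀ g, g ∈ J ⊓ J.map (MulAut.conj x).toMonoidHom ↔ g ∈ J ∧ f g c = c := fun g => by
      rw [Subgroup.mem_inf]
      refine and_congr_right fun _ => ?_
      constructor
      · rintro ⟨j, hj, rfl⟩
        show f (x * j * x⁻¹) c = c
        rw [hc, map_mul, map_mul, map_inv, Equiv.Perm.mul_apply, Equiv.Perm.mul_apply]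
        simp [(hfix j).2 hj]
      · intro hg
        refine ⟨x⁻¹ * g * x, (hfix _).1 ?_, ?_⟩
        · rw [map_mul, map_mul, map_inv, Equiv.Perm.mul_apply, Equiv.Perm.mul_apply, ← hc, hg, hc]
          simp
        · show x * (x⁻¹ * g * x) * x⁻¹ = g
          group
    have hn : SuzOrd.SuzL2.tbl.n ≤ 1024 := by decide
    have key : ∀ (k : Fin SuzOrd.SuzL2.tbl.n) (S : ℕ) (ws : List (List ℕ)) (reps : List ℕ) (steps : List (ℕ × ℕ)),
        (∀ c, e c ∈ MulAction.orbit J (e k) ↔ bit S (c : Fin SuzOrd.SuzL2.tbl.n) = true) →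
        coverOK SuzOrd.SuzL2.tbl 5 k S ws reps steps = true →
        (∀ d ∈ reps, ∃ how tree, blockOK SuzOrd.SuzL2.tbl 5 k d S how tree = true) →
        (∃ g ∈ J, f g k ≠ k) → bit S c = true →
        IsCoatom ((J ⊓ J.map (MulAut.conj x).toMonoidHom).subgroupOf J) := by
      intro k S ws reps steps hS1 hcov hblk hmove hcb
      obtain ⟨h, hh, hhc⟩ := horb.1 ((hS1 c).2 hcb)
      refine ⟨fun htop => ?_, fun L hL => ?_⟩
      · obtain ⟨g, hg, hgk⟩ := hmove
        refine hgk ?_
        have hm : h * g * h⁻¹ ∈ J := mul_mem (mul_mem hh hg) (inv_mem hh)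
        have := ((hS _).1 (Subgroup.mem_subgroupOf.1
          (htop ▸ Subgroup.mem_top (⟨h * g * h⁻¹, hm⟩ : ↥J)))).2
        rw [← hhc, map_mul, map_mul, map_inv, Equiv.Perm.mul_apply, Equiv.Perm.mul_apply] at this
        simpa using this
      · set L' : Subgroup ↥(chevG2.group K) := (L.map J.subtype).map (MulAut.conj h⁻¹).toMonoidHom with hL'
        have hmem : ∀ g, g ∈ L' ↔ ∃ hm : h * g * h⁻¹ ∈ J, (⟨_, hm⟩ : ↥J) ∈ L := fun g => by
          constructor
          · rintro ⟨_, ⟨a, ha, rfl⟩, rfl⟩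
            have e : h * ((MulAut.conj h⁻¹).toMonoidHom (J.subtype a)) * h⁻¹ = a.1 := by
              show h * (h⁻¹ * a.1 * h⁻¹⁻¹) * h⁻¹ = a.1
              group
            refine ⟨e.symm ▸ a.2, ?_⟩
            rw [show (⟨h * ((MulAut.conj h⁻¹).toMonoidHom (J.subtype a)) * h⁻¹, e.symm ▸ a.2⟩ : ↥J) = a from Subtype.ext e]
            exact ha
          · rintro ⟨hm, ha⟩
            refine ⟨_, ⟨_, ha, rfl⟩, ?_⟩
            show h⁻¹ * (h * g * h⁻¹) * h⁻¹⁻¹ = g
            group
        have hLJ : L' ≤ J := fun g hg => by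
          obtain ⟨hm, -⟩ := (hmem g).1 hg
          have := mul_mem (mul_mem (inv_mem hh) hm) hh
          simpa [mul_assoc] using this
        have hcnj : ∀ g, f (h * g * h⁻¹) c = c ↔ f g k = k := fun g => by
          rw [← hhc, map_mul, map_mul, map_inv, Equiv.Perm.mul_apply, Equiv.Perm.mul_apply]
          simp
        have Hset : Setting hT (yG w hw) f 5 J L' k :=
          { hf := hf, hk := by decide, gen_mem := fun y hy => Subgroup.subset_closure ⟨y, hy, rfl⟩, le := hLJ
            stab := fun g hg hgk => (hmem g).2 ⟨mul_mem (mul_mem hh hg) (inv_mem hh),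
              hL.le (Subgroup.mem_subgroupOf.2 ((hS _).2 ⟨mul_mem (mul_mem hh hg) (inv_mem hh), (hcnj g).2 hgk⟩))⟩ }
        have hmax := stab_maximal Hset S hn (fun g hg => (hS1 _).1 (horb.2 ⟨g, hg, rfl⟩)) hcov hblk (by
          obtain ⟨a, haL, haS⟩ := SetLike.exists_of_lt hL
          refine ⟨h⁻¹ * a.1 * h, (hmem _).2 ?_, fun hk => haS (Subgroup.mem_subgroupOf.2 ((hS _).2 ⟨a.2, ?_⟩))⟩
          · have e : h * (h⁻¹ * a.1 * h) * h⁻¹ = a.1 := by group
            refine ⟨e.symm ▸ a.2, ?_⟩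
            rw [show (⟨h * (h⁻¹ * a.1 * h) * h⁻¹, e.symm ▸ a.2⟩ : ↥J) = a from Subtype.ext e]
            exact haL
          · have := (hcnj _).2 hk
            rwa [show h * (h⁻¹ * a.1 * h) * h⁻¹ = a.1 by group] at this)
        refine eq_top_iff.2 fun a _ => ?_
        have hin : h⁻¹ * a.1 * h ∈ L' := by
          rw [hmax]; exact mul_mem (mul_mem (inv_mem hh) a.2) hh
        obtain ⟨hm, ha⟩ := (hmem (h⁻¹ * a.1 * h)).1 hin
        rw [show a = (⟨h * (h⁻¹ * a.1 * h) * h⁻¹, hm⟩ : ↥J) from Subtype.ext (by show a.1 = _; group)]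
        exact ha
    rcases hcover c hco with hb | hb
    · refine key k1 orbMask315 stabWords315 repList315 stepList315 ho1 (by rw [hk1]; exact cover315)
        (by rw [hk1]; exact blocks315) ⟨yG w hw 1, Subgroup.subset_closure ⟨1, by decide, rfl⟩, ?_⟩ hb
      intro hk
      have := congrArg Fin.val hk
      rw [hf 1 (by decide), Tab.Checked.perm_apply _ (by decide), hk1] at this
      exact absurd this (by decide +kernel)
    · refine key k2 orbMask100 stabWords100 repList100 stepList100 ho2 (by rw [hk2]; exact cover100)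
        (by rw [hk2]; exact blocks100) ⟨yG w hw 4, Subgroup.subset_closure ⟨4, by decide, rfl⟩, ?_⟩ hb
      intro hk
      have := congrArg Fin.val hk
      rw [hf 4 (by decide), Tab.Checked.perm_apply _ (by decide), hk2] at this
      exact absurd this (by decide +kernel)

omit hw hK in
theorem exists_extremely_primitive (h4 : Fintype.card K = 4) :
    ∃ H : Subgroup ↥(chevG2.group K), IsCoatom H ∧ Cfsg.Spor.IsoJ2 ↥H ∧
      ∀ x : ↥(chevG2.group K), x ∉ H → IsCoatom ((H ⊓ H.map (MulAut.conj x).toMonoidHom).subgroupOf H) := by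
  classical
  obtain ⟨v, hv⟩ := exists_w (K := K) h4
  exact ⟨jSub v hv, (extremely_primitive v hv h4).1, iso_J2 v hv h4, (extremely_primitive v hv h4).2⟩

end Cfsg.Agent.G24Iso
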